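import Cfsg.Agent.Solvable.UniqueOrderP
import Mathlib.GroupTheory.QuotientGroup.Basic
import Mathlib.GroupTheory.Abelianization.Defs
set_option linter.all false

/-!
# 2-groups with a generalized quaternion quotient (helper309)
-/

set_option autoImplicit false

namespace Cfsg.Agent.H309

open Subgroup

/-- A nonabelian quotient of a finite 2-group with exactly one involution is generalized quaternion:
a surjection onto `QuaternionGroup (2 ^ m)` with the given kernel. -/
theorem exists_quaternion_hom {S : Type*} [Group S] [Finite S] (hS : IsPGroup 2 S) (K : Subgroup S)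
    [K.Normal] (hna : ¬ IsMulCommutative (S ⧸ K)) (hu : ∃! x : S ⧸ K, orderOf x = 2) :
    ∃ (m : ℕ) (f : S →* QuaternionGroup (2 ^ m)), m ≠ 0 ∧ Function.Surjective f ∧ f.ker = K := by
  have : Fact (Nat.Prime 2) := ⟨Nat.prime_two⟩
  have hp : IsPGroup 2 (S ⧸ K) := hS.to_quotient K
  have hU : Cfsg.Agent.Solvable.UniqueOrderP.UniqueP 2 (S ⧸ K) := by
    intro x y hx hx2 hy2
    by_cases hy : y = 1
    · subst hy; exact one_mem _
    · have h1 : orderOf x = 2 := orderOf_eq_prime hx2 hx
      have h2 : orderOf y = 2 := orderOf_eq_prime hy2 hy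
      rw [hu.unique h2 h1]
      exact mem_zpowers x
  rcases Cfsg.Agent.Solvable.UniqueOrderP.cyclic_or_quaternion hp hU with h | ⟨-, m, hm, ⟨e⟩⟩
  · exfalso
    apply hna
    obtain ⟨g, hg⟩ := h
    refine ⟨⟨fun a b => ?_⟩⟩
    obtain ⟨i, rfl⟩ := hg a
    obtain ⟨j, rfl⟩ := hg b
    show g ^ i * g ^ j = g ^ j * g ^ i
    rw [← zpow_add, ← zpow_add, add_comm]
  · refine ⟨m, e.toMonoidHom.comp (QuotientGroup.mk' K), hm, ?_, ?_⟩
    · exact e.surjective.comp (QuotientGroup.mk'_surjective K)
    · ext x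
      rw [MonoidHom.mem_ker]
      simp [QuotientGroup.eq_one_iff]

theorem a_one_zpow {n : ℕ} (i : ℤ) :
    (QuaternionGroup.a 1 : QuaternionGroup n) ^ i = .a (i : ZMod (2 * n)) := by
  induction i using Int.induction_on with
  | zero => simp [QuaternionGroup.a_zero]
  | succ i ih =>
    rw [zpow_add_one, ih, QuaternionGroup.a_mul_a]; push_cast; rfl
  | pred i ih =>
    rw [zpow_sub_one, ih]
    have : (QuaternionGroup.a 1 : QuaternionGroup n)⁻¹ = .a (-1) := by
      rw [inv_eq_iff_mul_eq_one, QuaternionGroup.a_mul_a]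
      simp [QuaternionGroup.a_zero]
    rw [this, QuaternionGroup.a_mul_a]; push_cast; rw [sub_eq_add_neg]

/-- If `f : S → QuaternionGroup n` has central kernel then the commutator subgroup of `S` is cyclic. -/
theorem commutator_cyclic_of_quaternion {S : Type*} [Group S] {n : ℕ}
    (f : S →* QuaternionGroup n) (hf : Function.Surjective f) (hK : f.ker ≤ center S) :
    IsCyclic (commutator S) := by
  obtain ⟨a, ha⟩ := hf (.a 1)
  obtain ⟨b, hb⟩ := hf (.xa 0)
  -- every element is `a ^ i * k` or `b * a ^ i * k`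
  have hform : ∀ s : S, ∃ (i : ℤ) (k : S), k ∈ center S ∧ (s = a ^ i * k ∨ s = b * a ^ i * k) := by
    intro s
    have hpow : ∀ i : ℤ, f (a ^ i) = .a (i : ZMod (2 * n)) := by
      intro i
      rw [map_zpow, ha, a_one_zpow]
    rcases hfs : f s with i | i
    · obtain ⟨i, rfl⟩ := ZMod.intCast_surjective i
      refine ⟨i, (a ^ i)⁻¹ * s, hK ?_, Or.inl (by group)⟩
      rw [MonoidHom.mem_ker, map_mul, map_inv, hfs, hpow, inv_mul_cancel]
    · obtain ⟨i, rfl⟩ := ZMod.intCast_surjective i
      refine ⟨i, (b * a ^ i)⁻¹ * s, hK ?_, Or.inr (by group)⟩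
      rw [MonoidHom.mem_ker, map_mul, map_inv, hfs, map_mul, hb, hpow, QuaternionGroup.xa_mul_a, zero_add,
        inv_mul_cancel]
  -- `c = [b, a]`
  set k : S := b * a * b⁻¹ * a with hk
  have hkc : k ∈ center S := by
    apply hK
    rw [MonoidHom.mem_ker, hk]
    have h1 : f (b * a) = f (a⁻¹ * b) := by
      rw [map_mul, map_mul, map_inv, ha, hb, QuaternionGroup.xa_mul_a]
      have : (QuaternionGroup.a 1 : QuaternionGroup n)⁻¹ = .a (-1) := by
        rw [inv_eq_iff_mul_eq_one, QuaternionGroup.a_mul_a]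
        simp [QuaternionGroup.a_zero]
      rw [this, QuaternionGroup.a_mul_xa]; simp
    have h2 : f (b * a * b⁻¹ * a) = f (b * a) * (f b)⁻¹ * f a := by simp
    rw [h2, h1]; simp
  have hkcomm : ∀ x : S, x * k = k * x := fun x => (mem_center_iff.1 hkc x)
  set c : S := b * a * b⁻¹ * a⁻¹ with hc
  have hck : c = k * (a⁻¹ * a⁻¹) := by rw [hc, hk]; group
  have hbab : b * a * b⁻¹ = k * a⁻¹ := by rw [hk]; group
  have hac : a * c * a⁻¹ = c := by
    rw [hck]
    calc a * (k * (a⁻¹ * a⁻¹)) * a⁻¹ = (a * k) * (a⁻¹ * a⁻¹ * a⁻¹) := by group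
      _ = (k * a) * (a⁻¹ * a⁻¹ * a⁻¹) := by rw [hkcomm]
      _ = k * (a⁻¹ * a⁻¹) := by group
  have hbc : b * c * b⁻¹ = c⁻¹ := by
    have h1 : b * a⁻¹ * b⁻¹ = a * k⁻¹ := by
      have : b * a⁻¹ * b⁻¹ = (b * a * b⁻¹)⁻¹ := by group
      rw [this, hbab]; group
    calc b * c * b⁻¹ = b * (k * (a⁻¹ * a⁻¹)) * b⁻¹ := by rw [hck]
      _ = (b * k) * (a⁻¹ * b⁻¹) * (b * a⁻¹ * b⁻¹) := by group
      _ = (k * b) * (a⁻¹ * b⁻¹) * (b * a⁻¹ * b⁻¹) := by rw [hkcomm]
      _ = k * (b * a⁻¹ * b⁻¹) * (b * a⁻¹ * b⁻¹) := by group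
      _ = k * (a * k⁻¹) * (a * k⁻¹) := by rw [h1]
      _ = (k * a) * k⁻¹ * (a * k⁻¹) := by group
      _ = (a * k) * k⁻¹ * (a * k⁻¹) := by rw [hkcomm]
      _ = a * a * k⁻¹ := by simp [mul_assoc]
      _ = c⁻¹ := by rw [hck]; simp [mul_assoc]
  have hcn : (zpowers c).Normal := by
    have key : ∀ s : S, s * c * s⁻¹ ∈ zpowers c := by
      intro s
      have hai : ∀ i : ℤ, a ^ i * c * (a ^ i)⁻¹ = c := by
        intro i
        have : Commute a c := by
          have := hac
          show a * c = c * a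
          calc a * c = (a * c * a⁻¹) * a := by group
            _ = c * a := by rw [this]
        have := this.zpow_left i
        rw [this.eq]; group
      obtain ⟨i, z, hz, rfl | rfl⟩ := hform s
      · have : a ^ i * z * c * (a ^ i * z)⁻¹ = a ^ i * (z * c * z⁻¹) * (a ^ i)⁻¹ := by group
        rw [this, ← mem_center_iff.1 hz c, mul_inv_cancel_right, hai]
        exact mem_zpowers c
      · have : b * a ^ i * z * c * (b * a ^ i * z)⁻¹ = b * (a ^ i * (z * c * z⁻¹) * (a ^ i)⁻¹) * b⁻¹ := by group
        rw [this, ← mem_center_iff.1 hz c, mul_inv_cancel_right, hai, hbc]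
        exact inv_mem (mem_zpowers c)
    constructor
    intro x hx s
    obtain ⟨i, rfl⟩ := mem_zpowers_iff.1 hx
    rw [← conj_zpow]
    exact zpow_mem (key s) i
  -- the quotient is commutative
  have hcomm : commutator S ≤ zpowers c := by
    have hq : ∀ s t : S, (QuotientGroup.mk' (zpowers c)) s * (QuotientGroup.mk' (zpowers c)) t =
        (QuotientGroup.mk' (zpowers c)) t * (QuotientGroup.mk' (zpowers c)) s := by
      set q := QuotientGroup.mk' (zpowers c) with hq
      have hqab : Commute (q a) (q b) := by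
        have h0 : q c = 1 := by
          rw [hq, QuotientGroup.mk'_apply, QuotientGroup.eq_one_iff]; exact mem_zpowers c
        have h00 : q c = q b * q a * (q b)⁻¹ * (q a)⁻¹ := by
          have : q c = q (b * a * b⁻¹ * a⁻¹) := congrArg q hc
          rw [this, map_mul, map_mul, map_mul, map_inv, map_inv]
        show q a * q b = q b * q a
        have h2 : q b * q a * (q b)⁻¹ * (q a)⁻¹ = 1 := h00.symm.trans h0
        have h3 : q b * q a = q a * q b := by
          calc q b * q a = (q b * q a * (q b)⁻¹ * (q a)⁻¹) * (q a * q b) := by group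
            _ = q a * q b := by rw [h2, one_mul]
        exact h3.symm
      have hz : ∀ z ∈ center S, ∀ s, Commute (q z) (q s) := by
        intro z hz s
        show q z * q s = q s * q z
        rw [← map_mul, ← map_mul, mem_center_iff.1 hz s]
      have ha' : ∀ s, Commute (q a) (q s) := by
        intro s
        obtain ⟨i, z, hzz, rfl | rfl⟩ := hform s
        · rw [map_mul, map_zpow]
          exact ((Commute.refl _).zpow_right i).mul_right (hz z hzz a).symm
        · rw [map_mul, map_mul, map_zpow]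
          exact (hqab.mul_right ((Commute.refl _).zpow_right i)).mul_right (hz z hzz a).symm
      have hb' : ∀ s, Commute (q b) (q s) := by
        intro s
        obtain ⟨i, z, hzz, rfl | rfl⟩ := hform s
        · rw [map_mul, map_zpow]
          exact (hqab.symm.zpow_right i).mul_right (hz z hzz b).symm
        · rw [map_mul, map_mul, map_zpow]
          exact ((Commute.refl _).mul_right (hqab.symm.zpow_right i)).mul_right (hz z hzz b).symm
      intro s t
      obtain ⟨i, z, hzz, rfl | rfl⟩ := hform s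
      · rw [map_mul, map_zpow]
        exact ((ha' t).zpow_left i).mul_left (hz z hzz t)
      · rw [map_mul, map_mul, map_zpow]
        exact ((hb' t).mul_left ((ha' t).zpow_left i)).mul_left (hz z hzz t)
    rw [commutator_def, commutator_le]
    intro s _ t _
    have h1 := hq s t
    rw [← QuotientGroup.eq_one_iff, commutatorElement_def]
    have : (QuotientGroup.mk' (zpowers c)) (s * t * s⁻¹ * t⁻¹) = 1 := by
      rw [map_mul, map_mul, map_mul, map_inv, map_inv, h1]; group
    exact this
  exact isCyclic_of_injective (inclusion hcomm) (inclusion_injective hcomm)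

end Cfsg.Agent.H309
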